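import Cfsg.Agent.H9.E83.Dat

/-!
Kernel checks for the rotation of the digits.
-/

set_option autoImplicit false
set_option maxRecDepth 100000

namespace Cfsg.Agent.H9.SL2

theorem sgc_242 : ((List.range 243).all fun k => Nat.ble (sg 242 k) 242 && sgc 242 242 k &&
    sgc 242 244 k) = true := by decide +kernel

theorem sgc_728 : ((List.range 729).all fun k => Nat.ble (sg 728 k) 728 && sgc 728 728 k) = true := by
  decide +kernel

theorem sgc_730 : ((List.range 729).all fun k => sgc 728 730 k) = true := by decide +kernel

theorem orb_242 : ∀ k ≤ 242, ((orb 242 k).map (sg 242)).Perm (orb 242 k) := by decide +kernel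

theorem orb_728 : ∀ k ≤ 728, ((orb 728 k).map (sg 728)).Perm (orb 728 k) := by decide +kernel

end Cfsg.Agent.H9.SL2
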