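import Cfsg.Agent.H9.E83.Dat

/-!
Kernel checks for the feasible characters.
-/

set_option autoImplicit false
set_option maxRecDepth 100000

namespace Cfsg.Agent.H9.SL2

theorem chk_e2 : enum leaf2 cols 2 0 = true := by decide +kernel

theorem chk_b26 : bad26.all (srch (gd 6) 200 V26) = true := by decide +kernel

theorem chk_b52 : bad52.all (srch (gd 9) 200 V52) = true := by decide +kernel

theorem chk_v2 : vchk 242 4 c2 V2 = true := by decide +kernel

theorem chk_v26 : vchk 728 104 c26 V26 = true := by decide +kernel

theorem chk_v52 : vchk 728 104 c52 V52 = true := by decide +kernel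

end Cfsg.Agent.H9.SL2
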