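import Cfsg.Agent.H9.SL2.Cmb

/-!
Enumeration of the points of an alcove.
-/

set_option autoImplicit false
set_option linter.unusedSectionVars false
set_option linter.unusedSimpArgs false
set_option maxRecDepth 100000

namespace Cfsg.Agent.H9.SL2

/-- The enumeration. -/
def enum (leaf : ℕ → Bool) : List (ℕ × ℕ) → ℕ → ℕ → Bool
  | [], _, v => leaf v
  | p :: cs, b, v => (List.range (b / p.1 + 1)).all fun t =>
      enum leaf cs (b - t * p.1) (Nat.add v (Nat.mul t p.2))

/-- The enumeration of the lifts. -/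
def lift (leaf : ℕ → Bool) (m : ℕ) : List (ℕ × ℕ) → ℕ → Bool
  | [], v => leaf v
  | p :: cs, v => lift leaf m cs v && lift leaf m cs (Nat.add v (Nat.mul m p.2))

theorem enum_sound {leaf : ℕ → Bool} {ι : Type*} (m : ι → ℕ) (hm : ∀ i, 0 < m i) (g : ι → ℕ)
    (c : ι → ℕ) (I : List ι) {b f : ℕ} (h : enum leaf (I.map fun i => (m i, g i)) b f = true)
    (hb : (I.map fun i => c i * m i).sum ≤ b) : leaf (f + (I.map fun i => c i * g i).sum) = true := by
  induction I generalizing b f with
  | nil => simpa [enum] using h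
  | cons i I ih =>
    simp only [List.map_cons, List.sum_cons, enum, List.all_eq_true, List.mem_range] at h hb ⊢
    simpa only [Nat.add_eq, Nat.mul_eq, add_assoc] using ih (h (c i) (Nat.lt_succ_of_le
      ((Nat.le_div_iff_mul_le (hm i)).2 (by omega)))) (by omega)

theorem lift_sound {leaf : ℕ → Bool} {ι : Type*} (m : ι → ℕ) (g : ι → ℕ) (M : ℕ)
    (c : ι → ℕ) (hc : ∀ i, c i ≤ 1) (I : List ι) {f : ℕ}
    (h : lift leaf M (I.map fun i => (m i, g i)) f = true) :
    leaf (f + (I.map fun i => c i * M * g i).sum) = true := by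
  induction I generalizing f with
  | nil => simpa [lift] using h
  | cons i I ih =>
    simp only [List.map_cons, List.sum_cons, lift, Bool.and_eq_true] at h ⊢
    rcases Nat.le_one_iff_eq_zero_or_eq_one.1 (hc i) with e | e
    · simpa only [e, zero_mul, zero_add] using ih h.1
    · simpa only [e, one_mul, Nat.add_eq, Nat.mul_eq, add_assoc] using ih h.2

/-- Packing of lists. -/
def pk : List ℕ → ℕ
  | [] => 0
  | x :: l => x + 65536 * pk l

/-- Unpacking of lists. -/
noncomputable def unp (n P : ℕ) : List ℕ := Nat.rec (motive := fun _ => ℕ → List ℕ) (fun _ => [])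
  (fun _ ih P => Nat.mod P (nat_lit 65536) :: ih (Nat.div P (nat_lit 65536))) n P

theorem unp_pk {l : List ℕ} (h : ∀ x ∈ l, x < 65536) : unp l.length (pk l) = l := by
  induction l with
  | nil => rfl
  | cons x l ih =>
    have := h x (by simp)
    change (pk (x :: l) % 65536) :: unp l.length (pk (x :: l) / 65536) = _
    rw [show pk (x :: l) % 65536 = x by unfold pk; omega, show pk (x :: l) / 65536 = pk l by
      conv_lhs => unfold pk
      omega, ih fun y hy => h y (by simp [hy])]

theorem pk_sum {α ι : Type*} (l : List α) (I : List ι) (c : ι → ℕ) (g : ι → α → ℕ) :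
    (I.map fun i => c i * pk (l.map (g i))).sum = pk (l.map fun x => (I.map fun i => c i * g i x).sum) := by
  induction l with
  | nil => simp [pk]
  | cons x l ih =>
    simp only [List.map_cons, pk, ← ih, mul_add, List.sum_map_add, ← List.sum_map_mul_left,
      mul_left_comm]

/-- Invariance of the residues under multiplication by three. -/
def Inv3 (m : ℕ) (t : List ℕ) : Prop :=
  (t : Multiset ℕ).map (fun v => 3 * v % m) = (t : Multiset ℕ).map (· % m)

/-- The sum of squares. -/
noncomputable def ssq (t : List ℕ) : ℕ := List.rec 0 (fun v _ acc => Nat.add (Nat.mul v v) acc) t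

theorem ssq_of {t : List ℕ} (h : Inv3 52 t) : ssq t % 13 = 0 := by
  have h1 : ((ssq t : ℕ) : ZMod 13) = (t.map fun v : ℕ => (v : ZMod 13) ^ 2).sum := by
    clear h
    induction t with
    | nil => rfl
    | cons a t ih => rw [List.map_cons, List.sum_cons, ← ih, sq]; exact_mod_cast rfl
  have h2 : ∀ v : ℕ, ((v % 52 : ℕ) : ZMod 13) = v := fun v =>
    (ZMod.natCast_eq_natCast_iff' _ _ _).2 (by omega)
  have := congrArg (fun s : Multiset ℕ => (s.map fun v : ℕ => (v : ZMod 13) ^ 2).sum) h
  simp only [List.map_map, Function.comp_def, h2, Nat.cast_mul, mul_pow, Multiset.map_coe,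
    Multiset.sum_coe, List.sum_map_mul_left, ← h1] at this
  rw [← Nat.dvd_iff_mod_eq_zero, ← ZMod.natCast_eq_zero_iff]
  exact (show ∀ x : ZMod 13, ((3 : ℕ) : ZMod 13) ^ 2 * x = x → x = 0 by decide) _ this

/-- Packed histograms. -/
noncomputable def hst (k m : ℕ) (t : List ℕ) : ℕ :=
  List.rec 0 (fun v _ acc => Nat.add (Nat.pow (nat_lit 256) (Nat.mod (Nat.mul k v) m)) acc) t

theorem hst_eq (k m : ℕ) (t : List ℕ) : hst k m t = (t.map fun v => 256 ^ (k * v % m)).sum := by
  induction t with
  | nil => rfl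
  | cons a t ih => rw [List.map_cons, List.sum_cons, ← ih]; rfl

/-- A test for the invariance. -/
noncomputable def inv3 (m : ℕ) (t : List ℕ) : Bool := Nat.beq (hst (nat_lit 3) m t) (hst (nat_lit 1) m t)

theorem inv3_of {m : ℕ} {t : List ℕ} (h : Inv3 m t) : inv3 m t = true := by
  simpa [inv3, hst_eq, Function.comp_def] using
    congrArg (fun s : Multiset ℕ => (s.map (256 ^ ·)).sum) h

/-- Classes of residues from a table. -/
def cls (T m v : ℕ) : ℕ := Nat.mod (Nat.shiftRight T (Nat.mul (nat_lit 4) (Nat.mod v m))) (nat_lit 16)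

end Cfsg.Agent.H9.SL2
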