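import Cfsg.Agent.H9.E83.Side
import Cfsg.Agent.H9.E83.Chk1
import Cfsg.Agent.H9.E83.Chk2
import Cfsg.Agent.H9.E83.Chk3

/-!
`E₈(3)` has no subgroups `L₂(243)` and `L₂(729)`.
-/

set_option autoImplicit false
set_option linter.unusedSectionVars false
set_option linter.unusedSimpArgs false
set_option maxRecDepth 100000

namespace Cfsg.Agent.H9.Ch

open Matrix Cfsg.Lie Cfsg.Agent.H9.SL2
open scoped MatrixGroups

theorem le_of_sum {c : Fin 8 → ℕ} {b : ℕ} (h : ∑ i, c i * mk8 i ≤ b) (i : Fin 8) : c i ≤ b :=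
  (Nat.le_mul_of_pos_right _ (by revert i; decide)).trans
    ((Finset.single_le_sum (f := fun i => c i * mk8 i) (fun _ _ => Nat.zero_le _) (Finset.mem_univ i)).trans h)

theorem enum8 {leaf : ℕ → Bool} {b : ℕ} (h : enum leaf cols b 0 = true) {c : Fin 8 → ℕ}
    (hc : ∑ i, c i * mk8 i ≤ b) : leaf (I8.map fun i => c i * pk (rl2.map (gc i))).sum = true := by
  rw [cols_eq] at h
  simpa only [zero_add] using enum_sound mk8 (by decide) _ c I8 h (by rwa [sum_I8])

theorem no243 {F : Type*} [Field F] [Fintype F] (hF : Fintype.card F = 243)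
    {H : Subgroup (chevE8.group (ZMod 3))} (e : H ≃* PSL(2, F)) : False := by
  obtain ⟨c, h1, b, h2⟩ := key (N := 242) (M := 2) (M1 := 2) (f := 5) hF rfl (by norm_num)
    (by norm_num) (by norm_num) (by norm_num)
    (fun k hk => by simpa [and_assoc] using List.all_eq_true.1 sgc_242 k (by simp; omega)) orb_242
    (by norm_num) (fun p hp h => .inl ((Nat.prime_dvd_prime_iff_eq hp Nat.prime_two).1 h))
    (by norm_num) (by norm_num) (by norm_num) e
  obtain ⟨-, ⟨v, hv, h3⟩, h4⟩ := h2 c fun i => ⟨-b i, by push_cast; ring⟩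
  have h5 := enum8 chk_e2 h1
  rw [leaf2, unp_tl fun i => (le_of_sum h1 i).trans (by norm_num), Bool.or_eq_true, hs_eq] at h5
  rcases h5 with h5 | h5
  · refine srch_sound (by simp [tl_length]) h5 ?_
    convert h4 c2 V2 rfl chk_v2 using 1
    rw [Multiset.map_map]
    exact Multiset.map_congr rfl fun v _ => congrArg (fun x => Nat.mod (Nat.shiftRight _ (Nat.mul 4 x)) 16)
      (Nat.mod_mod v 4).symm
  · exact h3 (Nat.eq_of_beq_eq_true (List.all_eq_true.1 h5 v hv))

theorem no729 {F : Type*} [Field F] [Fintype F] (hF : Fintype.card F = 729)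
    {H : Subgroup (chevE8.group (ZMod 3))} (e : H ≃* PSL(2, F)) : False := by
  obtain ⟨c, h1, b, h2⟩ := key (N := 728) (M := 52) (M1 := 26) (f := 6) hF rfl (by norm_num)
    (by norm_num) (by norm_num) (by norm_num)
    (fun k hk => by
      have h1 := List.all_eq_true.1 sgc_728 k (by simp; omega)
      rw [Bool.and_eq_true, Nat.ble_eq] at h1
      exact ⟨h1.1, h1.2, List.all_eq_true.1 sgc_730 k (by simp; omega)⟩) orb_728
    (by norm_num) (fun p hp h => by
      have := Nat.le_of_dvd (by norm_num) h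
      by_contra! h2
      obtain ⟨h2, h3⟩ := h2
      interval_cases p <;> simp_all (config := {decide := true}))
    (by norm_num) (by norm_num) (by norm_num) e
  have hc := le_of_sum h1
  obtain ⟨h3, ⟨v, hv, h4⟩, h5⟩ := h2 (fun i => c i + (b i % 2).toNat * 26) fun i => by
    push_cast; omega
  have h6 : ∀ φ : ℕ → ℕ, (∀ v, φ v = φ (v % 52)) →
      (tl (fun i => c i + (b i % 2).toNat * 26) : Multiset ℕ).map φ = (tl c : Multiset ℕ).map φ :=
    fun φ hφ => by
      simp only [tl, Multiset.map_coe, List.map_map, sum_I8]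
      refine congrArg _ (List.map_congr_left fun l _ => ?_)
      simp only [Function.comp_def]
      rw [hφ, hφ (∑ i, c i * gc i l)]
      have : ∀ i, (c i + (b i % 2).toNat * 26) * gc i l =
          c i * gc i l + 52 * ((b i % 2).toNat * (v8 l i % 52).toNat) := fun i => by unfold gc; ring
      simp only [this, Finset.sum_add_distrib, ← Finset.mul_sum, Nat.add_mul_mod_self_left]
  have h7 : Inv3 52 (tl c) := by
    have := congrArg (Multiset.map (· % 52)) h3
    simp only [Multiset.map_map, Function.comp_def, Nat.mod_mod_of_dvd _ (show 52 ∣ 2 * 52 by norm_num)]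
      at this
    rwa [h6 _ fun v => by omega, h6 _ fun v => by omega] at this
  have h8 := enum8 chk_e26 h1
  rw [leaf26, unp_tl fun i => (hc i).trans (by norm_num), ssq_of h7, inv3_of h7, hs_eq] at h8
  simp only [Nat.beq_refl, Bool.not_true, Bool.false_or, Bool.or_eq_true] at h8
  rcases h8 with h8 | h8
  · refine srch_sound (by simp [tl_length]) (List.all_eq_true.1 chk_b26 _ (List.mem_of_elem_eq_true h8)) ?_
    have h9 : ∀ v, c26 v = c26 (v % 52) := fun v =>
      congrArg (fun x => Nat.mod (Nat.shiftRight _ (Nat.mul 4 x)) 16) (Nat.mod_mod v 52).symm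
    convert h5 c26 V26 rfl chk_v26 using 1
    rw [Multiset.map_map, ← h6 _ h9]
    refine Multiset.map_congr rfl fun v _ => ?_
    rw [Function.comp_apply, h9 v, h9 (v % (2 * 52)), Nat.mod_mod_of_dvd _ (by norm_num)]
  rw [cols_eq] at h8
  have h9 := lift_sound mk8 _ 26 (fun i => (b i % 2).toNat) (fun i => by omega) I8 h8
  simp only [← List.sum_map_add, ← add_mul] at h9
  rw [leaf52, unp_tl fun i => by have := hc i; omega, inv3_of h3, hs_eq] at h9
  simp only [Bool.not_true, Bool.false_or, Bool.or_eq_true] at h9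
  rcases h9 with h9 | h9
  · refine srch_sound (by simp [tl_length]) (List.all_eq_true.1 chk_b52 _ (List.mem_of_elem_eq_true h9)) ?_
    convert h5 c52 V52 rfl chk_v52 using 1
    rw [Multiset.map_map]
    exact Multiset.map_congr rfl fun v _ => congrArg (fun x => Nat.mod (Nat.shiftRight _ (Nat.mul 4 x)) 16)
      (Nat.mod_mod v 104).symm
  · exact h4 (Nat.eq_of_beq_eq_true (List.all_eq_true.1 h9 v hv))

end Cfsg.Agent.H9.Ch
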