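import Cfsg.Agent.H9.Ch.Spec
import Cfsg.Agent.H9.E83.Dat

/-!
Comparison of the eigenvalues in `E₈(3)` and in `L₂(3ᶠ)`.
-/

set_option autoImplicit false
set_option linter.unusedSectionVars false
set_option linter.unusedSimpArgs false
set_option linter.style.haveILetI false
set_option maxRecDepth 100000

namespace Cfsg.Agent.H9.Ch

open Matrix Cfsg.Lie Cfsg.Agent.H5.Ch Polynomial Cfsg.Agent.H9.SL2
open Cfsg.Agent.H5.Ch.SLD (Φ ng sp ad sw hv ng_val sp_val ad_val sw_apply sw_mul_self exists_perm)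
open scoped MatrixGroups

theorem alcove' {l n : ℕ} {R : SLD l n} {θ : R.Φ} {c : ℤ} (hc : 0 < c) (hθ : ht θ.1 = c - 1)
    (hsum : ∀ β : R.Φ, (β = θ ∨ ∃ i, β = R.sp i) → ∑ r, R.B (R.rt r) β.1 • R.rt r = (2 * c) • β.1)
    {M : ℕ} (hM : 0 < M) (a : (Fin l → ℤ) →ₗ[ℤ] ℤ) :
    ∃ w : (Fin l → ℤ) ≃ₗ[ℤ] (Fin l → ℤ), (∀ u v, R.B (w u) (w v) = R.B u v) ∧
      ∃ a' : (Fin l → ℤ) →ₗ[ℤ] ℤ, (∀ v, (M : ℤ) ∣ a (w v) - a' v) ∧
      (∀ i, 0 ≤ a' (al i)) ∧ a' θ.1 ≤ M := by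
  let Q : ((Fin l → ℤ) →ₗ[ℤ] ℤ) → ℤ := fun a => ∑ r, (c * a (R.rt r) - M * ht (R.rt r)) ^ 2
  have hQ : ∀ a, 0 ≤ Q a := fun a => Finset.sum_nonneg fun _ _ => sq_nonneg _
  have hM' : (0 : ℤ) < M := by exact_mod_cast hM
  induction hk : (Q a).toNat using Nat.strong_induction_on generalizing a with
  | _ k ih =>
  by_contra hcon
  have key : ∀ (β : R.Φ) (d : ℤ), (β = θ ∨ ∃ i, β = R.sp i) → (M : ℤ) ∣ a β.1 - d →
      0 ≤ d * (c * d + M * ht β.1 - c * a β.1) := by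
    rintro β d hβ ⟨j, hj⟩
    by_contra! hlt
    have h1 := isN_nn β (one_ne_zero (α := ℚ))
    have h2 : ∀ φ : (Fin l → ℤ) →ₗ[ℤ] ℤ, ∑ r, R.B (R.rt r) β.1 * φ (R.rt r) = 2 * c * φ β.1 :=
      fun φ => by simpa only [map_sum, map_smul, smul_eq_mul] using congrArg φ (hsum β hβ)
    have h3 : Q (a - d • R.B.flip β.1) = Q a - 2 * c * d * (c * ∑ r, R.B (R.rt r) β.1 * a (R.rt r) -
        M * ∑ r, R.B (R.rt r) β.1 * ht (R.rt r)) +
        c ^ 2 * d ^ 2 * ∑ r, R.B (R.rt r) β.1 * R.B.flip β.1 (R.rt r) := by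
      simp only [Q, Finset.mul_sum, ← Finset.sum_sub_distrib, ← Finset.sum_add_distrib]
      refine Finset.sum_congr rfl fun r _ => ?_
      simp only [LinearMap.sub_apply, LinearMap.smul_apply, LinearMap.flip_apply, smul_eq_mul]
      ring
    rw [h2, h2, h2, LinearMap.flip_apply, β.2] at h3
    obtain ⟨w, hw, a', h4, h5⟩ := ih _ (by
      have := hQ (a - d • R.B.flip β.1)
      have h5 : Q (a - d • R.B.flip β.1) - Q a =
          4 * c ^ 2 * (d * (c * d + M * ht β.1 - c * a β.1)) := by rw [h3]; ring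
      have : 4 * c ^ 2 * (d * (c * d + M * ht β.1 - c * a β.1)) < 0 :=
        mul_neg_of_pos_of_neg (by positivity) hlt
      omega) (a - d • R.B.flip β.1) rfl
    refine hcon ⟨sw β * w, fun u v => (h1.iso _ _).trans (hw u v), a', fun v => ?_, h5⟩
    refine (congrArg _ ?_).mpr ((h4 v).sub (dvd_mul_right (M : ℤ) (j * R.B (w v) β.1)))
    simp only [LinearEquiv.mul_apply, sw_apply, map_sub, map_smul, smul_eq_mul,
      LinearMap.sub_apply, LinearMap.smul_apply, LinearMap.flip_apply]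
    linear_combination -R.B (w v) β.1 * hj
  refine hcon ⟨1, fun _ _ => rfl, a, by simp, fun i => ?_, ?_⟩
  · have := key (R.sp i) (a (al i)) (Or.inr ⟨i, rfl⟩) (by simp)
    simp only [sp_val, ht_al] at this
    nlinarith
  · have := key θ (a θ.1 - M) (Or.inl rfl) (by simp)
    rw [hθ] at this
    nlinarith

theorem lin_eq (φ : (Fin 8 → ℤ) →ₗ[ℤ] ℤ) (v : Fin 8 → ℤ) : φ v = ∑ i, v i * φ (al i) := by
  rw [LinearMap.pi_apply_eq_sum_univ]
  exact Finset.sum_congr rfl fun i _ => congrArg (v i * φ ·) (funext fun j => by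
    simp [al, Pi.single_apply, eq_comm])

/-- The marks. -/
def mk8 (i : Fin 8) : ℕ := [2, 3, 4, 6, 5, 4, 3, 2].getD i 0

/-- The weights of the adjoint module. -/
def rl2 : List (List ℤ) := List.replicate 8 [] ++ rl

theorem alcove8 {M : ℕ} (hM : 0 < M) (a : (Fin 8 → ℤ) →ₗ[ℤ] ℤ) :
    ∃ π : Equiv.Perm (Fin 240), ∃ c : Fin 8 → ℕ, ∑ i, c i * mk8 i ≤ M ∧ ∃ b : Fin 8 → ℤ,
      ∀ r, a (rt8 (π r)) = ∑ i, rt8 r i * (c i + M * b i) := by
  obtain ⟨w, hw, a', h1, h2, h3⟩ := alcove' (R := E8) (θ := th8) (c := 30) (by norm_num)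
    (by rw [ht_apply]; decide +kernel) (by
      have : ∀ β : Fin 8 → ℤ, (∀ i, (rl.map fun l => Bf (v8 l) β * v8 l i).sum = 60 * β i) →
          ∑ r, E8.B (E8.rt r) β • E8.rt r = (2 * 30 : ℤ) • β := fun β h => funext fun i => by
        rw [Finset.sum_apply, Pi.smul_apply, smul_eq_mul, show (2 * 30 : ℤ) = 60 from rfl, ← h]
        simp only [E8_B]
        exact sum_rt fun v => Bf v β * v i
      rintro β (rfl | ⟨i, rfl⟩)
      · exact this _ hsum8.1
      · exact this _ (hsum8.2 i)) hM a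
  obtain ⟨π, hπ⟩ := exists_perm hw
  choose b hb using fun i => h1 (al i)
  refine ⟨π, fun i => (a' (al i)).toNat, ?_, b, fun r => ?_⟩
  · rw [lin_eq] at h3
    zify
    simp only [Int.toNat_of_nonneg (h2 _)]
    convert h3 using 2 with i
    rw [mul_comm]; fin_cases i <;> rfl
  · rw [← E8_rt, hπ]
    refine (lin_eq (a ∘ₗ w.toLinearMap) _).trans (Finset.sum_congr rfl fun i _ => ?_)
    rw [Int.toNat_of_nonneg (h2 _), ← hb]; simp [E8_rt]

theorem e8_side {M M1 : ℕ} (hM0 : M ≠ 0) (hM : ∀ p, p.Prime → p ∣ M → p = 2 ∨ 9 < p) (h1 : 0 < M1)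
    {a : K3} (ha : IsPrimitiveRoot a (2 * M)) (g : chevE8.group (ZMod 3)) (hg : g ^ M = 1) :
    ∃ c : Fin 8 → ℕ, ∑ i, c i * mk8 i ≤ M1 ∧ ∃ b : Fin 8 → ℤ, (rho g).1.charpoly =
      PP a (rl2.map fun l => 2 * ∑ i, v8 l i * (c i + M1 * b i) : List ℤ) := by
  obtain ⟨φ, -, -, h2, -⟩ := spec hM0 hM (ha.pow (by omega) rfl) g hg
  obtain ⟨π, c, h3, b, h4⟩ := alcove8 h1 φ
  refine ⟨c, h3, b, ?_⟩
  have := h2 1
  rw [pow_one, ← Equiv.prod_comp π] at this
  simp only [h4, Nat.cast_one, one_mul, ← zpow_natCast, ← _root_.zpow_mul] at this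
  rw [this, prod_rt fun v => X - C (a ^ (((2 : ℕ) : ℤ) * ∑ i, v i * (c i + M1 * b i)))]
  simp [PP, rl2, v8, Function.comp_def, pow_succ, mul_assoc]

/-- The columns. -/
def gc (i : Fin 8) (l : List ℤ) : ℕ := 2 * (v8 l i % 52).toNat

/-- The order of the coordinates. -/
def I8 : List (Fin 8) := [3, 4, 2, 5, 1, 6, 0, 7]

theorem sum_I8 (f : Fin 8 → ℕ) : (I8.map f).sum = ∑ i, f i := by
  simp [I8, Fin.sum_univ_eight]; ring

theorem cols_eq : cols = I8.map fun i => (mk8 i, pk (rl2.map (gc i))) := by decide +kernel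

/-- The values on the weights. -/
def tl (c : Fin 8 → ℕ) : List ℕ := rl2.map fun l => (I8.map fun i => c i * gc i l).sum

theorem tl_length (c : Fin 8 → ℕ) : (tl c).length = 248 := by simp [tl, rl2, rl_length]

theorem unp_tl {c : Fin 8 → ℕ} (hc : ∀ i, c i ≤ 60) :
    unp 248 (I8.map fun i => c i * pk (rl2.map (gc i))).sum = tl c := by
  rw [pk_sum, ← tl_length c]
  refine unp_pk fun x hx => ?_
  obtain ⟨l, -, rfl⟩ := List.mem_map.1 hx
  rw [sum_I8]
  refine (Finset.sum_le_card_nsmul _ _ (60 * 102) fun i _ => Nat.mul_le_mul (hc i) ?_).trans_lt (by simp)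
  unfold gc; omega

theorem eq_one_of_charpoly {g : chevE8.group (ZMod 3)} {M k : ℕ} (hM : ¬3 ∣ M) (hg : g ^ M = 1)
    (h : (rho g).1.charpoly = (X - 1) ^ k) : g = 1 := by
  have h1 := (rho g).1.aeval_self_charpoly
  rw [h, map_pow, map_sub, aeval_X, map_one] at h1
  have h2 := pow_eq_zero_of_le (Nat.lt_pow_self (n := k) (show 1 < 3 by norm_num)).le h1
  haveI : Fact (Nat.Prime 3) := ⟨Nat.prime_three⟩
  rw [sub_pow_char_pow_of_commute _ _ (Commute.one_right _), one_pow, sub_eq_zero, ← Units.val_pow_eq_pow_val,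
    Units.val_eq_one, ← map_pow, map_eq_one_iff _ rho_inj] at h2
  simpa [Nat.Coprime.gcd_eq_one (((Nat.Prime.coprime_iff_not_dvd Nat.prime_three).2 hM).pow_left k)]
    using pow_gcd_eq_one.2 ⟨h2, hg⟩

theorem key {F : Type*} [Field F] [Fintype F] {N M M1 f : ℕ} (hN : Fintype.card F = N + 1)
    (hf : N + 1 = 3 ^ f) (h2 : 2 < N) (h7 : N ≤ 728) (hp : ¬3 ∣ N) (hp' : ¬3 ∣ N + 2)
    (hσ : ∀ k ≤ N, SL2.sg N k ≤ N ∧ sgc N N k = true ∧ sgc N (N + 2) k = true)
    (horb : ∀ k ≤ N, ((orb N k).map (SL2.sg N)).Perm (orb N k)) (hM0 : 1 < M)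
    (hM : ∀ p, p.Prime → p ∣ M → p = 2 ∨ 9 < p) (h1 : 0 < M1) (hd : 2 * M ∣ N ∨ 2 * M ∣ N + 2)
    (hm : 2 * M ∣ 104) {H : Subgroup (chevE8.group (ZMod 3))} (e : H ≃* PSL(2, F)) :
    ∃ c : Fin 8 → ℕ, ∑ i, c i * mk8 i ≤ M1 ∧ ∃ b : Fin 8 → ℤ, ∀ c' : Fin 8 → ℕ,
      (∀ i, (M : ℤ) ∣ c' i - (c i + M1 * b i)) → Inv3 (2 * M) (tl c') ∧ (∃ v ∈ tl c', v % (2 * M) ≠ 0) ∧
      ∀ cf V, cf 0 = 0 → vchk N (2 * M) cf V = true →
        Sol V (((tl c' : Multiset ℕ).map (· % (2 * M))).map cf) := by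
  haveI : Fact (Nat.Prime 3) := ⟨Nat.prime_three⟩
  haveI : CharP F 3 := charP_of_card_eq_prime_pow (hN.trans hf)
  letI := ZMod.algebra F 3
  let ι : F →+* K3 := (IsAlgClosed.lift : F →ₐ[ZMod 3] K3).toRingHom
  let ψ : SL(2, F) →* chevE8.group (ZMod 3) :=
    H.subtype.comp (e.symm.toMonoidHom.comp (QuotientGroup.mk' _))
  let ρ : Representation K3 SL(2, F) (Fin 8 ⊕ Fin 240 → K3) :=
    (toLinAlgEquiv' : _ ≃ₐ[K3] _).toMonoidHom.comp ((Units.coeHom _).comp (rho.comp ψ))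
  have hρ : ∀ g, (ρ g).charpoly = (rho (ψ g)).1.charpoly := fun g => charpoly_toLin' _
  have hfr : ∀ g, (ρ g).charpoly.map (frobenius K3 3) = (ρ g).charpoly := fun g => by
    rw [hρ, ← charpoly_map]
    exact congrArg (fun x => x.1.charpoly) (rho_frob (ψ g))
  obtain ⟨L, h3, h4, h5⟩ := galois ι hN h2 hp hp' ρ hfr (SL2.sg N) fun k hk => ⟨(hσ k hk).1, by
    have := hσ k hk
    rintro n (rfl | rfl)
    · exact sgc_sound (by omega) (by omega) (by omega) this.2.1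
    · exact sgc_sound (by omega) (by omega) (by omega) this.2.2⟩
  have hM3 : ¬3 ∣ 2 * M := fun h => by have := h.trans hm; omega
  haveI : NeZero ((2 * M : ℕ) : K3) := ⟨by rwa [Ne, CharP.cast_eq_zero_iff K3 3]⟩
  obtain ⟨a, ha⟩ := HasEnoughRootsOfUnity.exists_primitiveRoot K3 (2 * M)
  obtain ⟨g, h6, h8, h9⟩ := h5 a (ha.ne_zero (by omega)) (ha.pow_ne_one_of_pos_of_lt two_ne_zero (by omega))
    (hd.imp (ha.pow_eq_one_iff_dvd _).2 (ha.pow_eq_one_iff_dvd _).2)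
  have h10 : ∀ g, ψ g = 1 ↔ g ∈ Subgroup.center _ := fun g => by simp [ψ]
  have h11 : ψ g ^ M = 1 := by
    rw [← map_pow, h6 M (ha.pow (by omega) (mul_comm _ _)).eq_neg_one_of_two_right, h10]
    exact Subgroup.mem_center_iff.2 fun g => by simp
  obtain ⟨c, h12, b, h13⟩ := e8_side (by omega) hM h1 ha _ h11
  refine ⟨c, h12, b, fun c' hc => ?_⟩
  have h14 := PP_inj (by omega) ha ((h9.symm.trans (hρ g)).trans h13)
  have h15 : (L.bind (wts K3)).map (res (2 * M)) = (tl c' : Multiset ℕ).map (· % (2 * M)) := by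
    have := congrArg (Multiset.map Int.toNat) h14
    simp only [Multiset.map_map, Multiset.map_coe, List.map_map, Function.comp_def] at this
    refine this.trans (congrArg _ ?_)
    rw [tl, List.map_map]
    refine List.map_congr_left fun l _ => ?_
    simp only [Function.comp_def, sum_I8]
    rw [← Int.toNat_natCast (_ % _), Int.natCast_mod]
    refine congrArg _ (Int.modEq_iff_dvd.2 ?_)
    simp only [Nat.cast_sum, Finset.mul_sum, ← Finset.sum_sub_distrib]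
    refine Finset.dvd_sum fun i _ => ?_
    obtain ⟨j, hj⟩ := hc i
    obtain ⟨d, hd⟩ := Int.natCast_dvd_natCast.2 hm
    refine ⟨v8 l i * j - d * c' i * (v8 l i / 52), ?_⟩
    have : (gc i l : ℤ) = 2 * v8 l i - 104 * (v8 l i / 52) := by unfold gc; omega
    push_cast at hd ⊢
    rw [this]
    linear_combination 2 * v8 l i * hj - c' i * (v8 l i / 52) * hd
  refine ⟨?_, ?_, fun cf V h0 hV => ?_⟩
  · have := hfr g
    rw [h9, PP_map _ 3 (fun _ => rfl)] at this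
    have := congrArg (Multiset.map Int.toNat) (PP_inj (by omega) ha this)
    simp only [Multiset.map_map, Function.comp_def] at this
    have h16 := congrArg (Multiset.map fun v => 3 * v % (2 * M)) h15
    simp only [Multiset.map_map, Function.comp_def, Nat.mul_mod_mod] at h16
    rw [Inv3, ← h16, ← h15]
    refine (Multiset.map_congr rfl fun w _ => ?_).trans this
    rw [← Int.toNat_natCast (_ % _), Int.natCast_mod, Nat.cast_mul, res,
      Int.toNat_of_nonneg (Int.emod_nonneg _ (by omega)), Int.mul_emod, Int.emod_emod_of_dvd _ dvd_rfl,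
      ← Int.mul_emod]
  · by_contra! h16
    refine h8 ((h10 g).1 (eq_one_of_charpoly (fun h => hM3 (h.mul_left 2)) h11
      (k := (L.bind (wts K3)).card) ?_))
    rw [← hρ, h9, PP, ← Multiset.prod_replicate, ← Multiset.map_const']
    refine congrArg _ (Multiset.map_congr rfl fun w hw => ?_)
    obtain ⟨v, hv, e⟩ := Multiset.mem_map.1 (h15 ▸ Multiset.mem_map_of_mem (res (2 * M)) hw)
    have := Int.emod_nonneg w (show ((2 * M : ℕ) : ℤ) ≠ 0 by omega)
    rw [h16 v hv, res] at e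
    rw [(ha.zpow_eq_one_iff_dvd w).2 (Int.dvd_of_emod_eq_zero (by omega)), map_one]
  obtain ⟨R, h16, h17⟩ := orb_dec horb h3 h4
  refine sol_of h0 hV (R := R) (fun k hk => ⟨h3 k (h16 k hk), ?_⟩) (by simp [tl_length]) ?_
  · obtain ⟨v, hv, e⟩ := Multiset.mem_map.1 (h14 ▸ Multiset.mem_map_of_mem _
      (Multiset.mem_bind.2 ⟨k, h16 k hk, mem_wts k⟩))
    obtain ⟨l, -, rfl⟩ := List.mem_map.1 hv
    have := Int.ModEq.of_dvd (Int.natCast_dvd_natCast.2 (dvd_mul_right 2 M)) e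
    unfold Int.ModEq at this
    omega
  · rw [← h15, ← h17]
    exact congrArg _ (Multiset.bind_congr fun k hk => wts_eq 6 k (by have := h3 k hk; omega))

end Cfsg.Agent.H9.Ch
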